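import Cfsg.Agent.H458.EP.Norm
import Cfsg.Agent.H953.Sympl
import Cfsg.Agent.H908.SLProper

/-!
# S3499-III-SL-C8Sp: the similarity groups of symplectic forms in `SL_n(q)` (helper458)
-/

set_option autoImplicit false

namespace Cfsg.Agent.H458.EP

open Subgroup Cfsg.Agent.H284 Cfsg.Agent.H419.EP Cfsg.Geo Matrix Cfsg.Agent.H953
open scoped MatrixGroups

section mats

variable {F : Type*} [Field F] {m : ℕ}

/-- the matrix `[0, 1; -1, 1]` on the coordinates `a`, `b` -/
def cm (F : Type*) [Field F] {m : ℕ} (a b : Fin m) : Matrix (Fin m) (Fin m) F := transvection a b 1 * transvection b a (-1)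

/-- the transposition matrix -/
def pm (F : Type*) [Field F] {m : ℕ} (a b : Fin m) : Matrix (Fin m) (Fin m) F := (1 : Matrix (Fin m) (Fin m) F).submatrix (Equiv.swap a b) id

theorem pm_mul (a b : Fin m) (M : Matrix (Fin m) (Fin m) F) : pm F a b * M = M.submatrix (Equiv.swap a b) id := by
  ext i j
  rw [pm, Matrix.mul_apply, Matrix.submatrix_apply]
  simp [Matrix.submatrix_apply, Matrix.one_apply]

theorem mul_pm (a b : Fin m) (M : Matrix (Fin m) (Fin m) F) : M * pm F a b = M.submatrix id (Equiv.swap a b) := by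
  ext i j
  rw [pm, Matrix.mul_apply, Matrix.submatrix_apply]
  rw [Finset.sum_eq_single (Equiv.swap a b j)]
  · simp [Matrix.submatrix_apply, Matrix.one_apply]
  · intro k _ hk
    have : Equiv.swap a b k ≠ j := by
      intro h
      apply hk
      rw [← h, Equiv.swap_apply_self]
    simp [Matrix.submatrix_apply, Matrix.one_apply, this]
  · intro h
    exact absurd (Finset.mem_univ _) h

theorem pm_pm (a b : Fin m) : pm F a b * pm F a b = 1 := by
  rw [pm_mul]
  ext i j
  rw [pm, Matrix.submatrix_apply, Matrix.submatrix_apply, Equiv.swap_apply_self]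
  rfl

theorem pm_T (a b : Fin m) (c : F) : pm F a b * transvection a b c = transvection b a c * pm F a b := by
  rw [pm_mul, mul_pm]
  ext i j
  rw [Matrix.submatrix_apply, Matrix.submatrix_apply]
  simp only [transvection, Matrix.add_apply, id]
  have h1 : (1 : Matrix (Fin m) (Fin m) F) (Equiv.swap a b i) j = (1 : Matrix (Fin m) (Fin m) F) i (Equiv.swap a b j) := by
    rw [Matrix.one_apply, Matrix.one_apply]
    congr 1
    rw [eq_iff_iff]
    constructor
    · intro h
      rw [← h, Equiv.swap_apply_self]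
    · intro h
      rw [h, Equiv.swap_apply_self]
  rw [h1]
  congr 1
  rw [Matrix.single_apply, Matrix.single_apply]
  congr 1
  rw [eq_iff_iff]
  constructor
  · rintro ⟨h1, h2⟩
    constructor
    · have h3 := congrArg (Equiv.swap a b) h1
      rwa [Equiv.swap_apply_left, Equiv.swap_apply_self] at h3
    · rw [← h2, Equiv.swap_apply_right]
  · rintro ⟨h1, h2⟩
    constructor
    · rw [← h1, Equiv.swap_apply_right]
    · have h3 := congrArg (Equiv.swap a b) h2
      rwa [Equiv.swap_apply_left, Equiv.swap_apply_self] at h3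

theorem pm_comm (a b : Fin m) : pm F a b = pm F b a := by
  rw [pm, pm, Equiv.swap_comm]

theorem cm_pm_cm {a b : Fin m} (hab : a ≠ b) : cm F a b * pm F a b * cm F a b = pm F a b := by
  have h1 := pm_T (F := F) a b 1
  have h2 := pm_T (F := F) b a (-1)
  rw [← pm_comm a b] at h2
  have h3 : transvection b a (-1 : F) * transvection b a 1 = 1 := by
    rw [transvection_mul_transvection_same _ _ (Ne.symm hab), neg_add_cancel, transvection_zero]
  have h4 : transvection a b (1 : F) * transvection a b (-1) = 1 := by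
    rw [transvection_mul_transvection_same _ _ hab, add_neg_cancel, transvection_zero]
  calc cm F a b * pm F a b * cm F a b
      = transvection a b 1 * transvection b a (-1) * (pm F a b * transvection a b 1) * transvection b a (-1) := by
        simp only [cm, Matrix.mul_assoc]
    _ = transvection a b 1 * (transvection b a (-1) * transvection b a 1) * (pm F a b * transvection b a (-1)) := by
        rw [h1]
        simp only [Matrix.mul_assoc]
    _ = transvection a b 1 * transvection a b (-1) * pm F a b := by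
        rw [h3, h2, Matrix.mul_one, Matrix.mul_assoc]
    _ = pm F a b := by rw [h4, Matrix.one_mul]

theorem cm_det {a b : Fin m} (hab : a ≠ b) : (cm F a b).det = 1 := by
  rw [cm, Matrix.det_mul, det_transvection_of_ne _ _ hab, det_transvection_of_ne _ _ (Ne.symm hab), one_mul]

theorem pm_transpose (a b : Fin m) : (pm F a b)ᵀ = pm F a b := by
  ext i j
  rw [Matrix.transpose_apply, pm, Matrix.submatrix_apply, Matrix.submatrix_apply, Matrix.one_apply, Matrix.one_apply]
  congr 1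
  rw [eq_iff_iff]
  constructor
  · intro h
    have h' : Equiv.swap a b j = i := h
    show Equiv.swap a b i = j
    rw [← h', Equiv.swap_apply_self]
  · intro h
    have h' : Equiv.swap a b i = j := h
    show Equiv.swap a b j = i
    rw [← h', Equiv.swap_apply_self]

theorem T_mulVec (i j : Fin m) (c : F) (v : Fin m → F) : transvection i j c *ᵥ v = v + Pi.single i (c * v j) := by
  rw [transvection, Matrix.add_mulVec, Matrix.one_mulVec]
  congr 1
  ext k
  rw [Matrix.mulVec, dotProduct]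
  by_cases hk : k = i
  · subst hk
    rw [Pi.single_eq_same, Finset.sum_eq_single j]
    · simp
    · intro l _ hl
      simp [Matrix.single_apply, Ne.symm hl]
    · intro h
      exact absurd (Finset.mem_univ _) h
  · rw [Pi.single_eq_of_ne hk]
    exact Finset.sum_eq_zero fun l _ => by simp [Matrix.single_apply, Ne.symm hk]

theorem cm_sq {a b : Fin m} (hab : a ≠ b) (l : F) : cm F a b * cm F a b ≠ l • (1 : Matrix (Fin m) (Fin m) F) := by
  intro h
  have h1 := congrFun (congrArg (fun M : Matrix (Fin m) (Fin m) F => M *ᵥ (Pi.single a 1 : Fin m → F)) h) b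
  simp only [cm, ← Matrix.mulVec_mulVec, T_mulVec, Matrix.smul_mulVec, Matrix.one_mulVec] at h1
  simp [hab, Ne.symm hab] at h1

end mats

section blocks

variable {F : Type*} [Field F] {m : ℕ}

theorem std_x (C : Matrix (Fin m) (Fin m) F) (u v : Fin m ⊕ Fin m → F) :
    stdForm m F (fromBlocks C 0 0 1 *ᵥ u) (fromBlocks C 0 0 1 *ᵥ v) = stdForm m F (fromBlocks C 0 0 Cᵀ *ᵥ u) v := by
  have key : ∀ a b : Fin m → F, ∑ i, a i * (C *ᵥ b) i = ∑ i, (Cᵀ *ᵥ a) i * b i := by
    intro a b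
    have h1 : a ⬝ᵥ (C *ᵥ b) = (Cᵀ *ᵥ a) ⬝ᵥ b := by
      rw [Matrix.dotProduct_mulVec, Matrix.mulVec_transpose]
    exact h1
  unfold stdForm
  rw [Finset.sum_sub_distrib, Finset.sum_sub_distrib]
  simp only [Matrix.fromBlocks_mulVec, Sum.elim_inl, Sum.elim_inr, Matrix.zero_mulVec, Matrix.one_mulVec, add_zero,
    zero_add, Function.comp_apply]
  rw [key]
  rfl

theorem std_g (a b : Fin m) (u v : Fin m ⊕ Fin m → F) :
    stdForm m F (fromBlocks (pm F a b) 0 0 (pm F a b) *ᵥ u) (fromBlocks (pm F a b) 0 0 (pm F a b) *ᵥ v) = stdForm m F u v := by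
  have key : ∀ w : Fin m → F, ∀ i, (pm F a b *ᵥ w) i = w (Equiv.swap a b i) := by
    intro w i
    rw [pm, Matrix.mulVec, dotProduct]
    simp [Matrix.submatrix_apply, Matrix.one_apply]
  unfold stdForm
  simp only [Matrix.fromBlocks_mulVec, Sum.elim_inl, Sum.elim_inr, Matrix.zero_mulVec, add_zero, zero_add, key,
    Function.comp_apply]
  exact Equiv.sum_comp (Equiv.swap a b) (fun i => u (Sum.inl i) * v (Sum.inr i) - u (Sum.inr i) * v (Sum.inl i))

end blocks

section row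

variable {F : Type*} [Field F] {n k : ℕ}

/-- an invertible matrix in symplectic coordinates -/
noncomputable def gm (e : Fin k ⊕ Fin k ≃ Fin n) (S₀ : GL (Fin n) F) (X : Matrix (Fin k ⊕ Fin k) (Fin k ⊕ Fin k) F)
    (hX : X.det = 1) : GL (Fin n) F :=
  S₀ * GeneralLinearGroup.mkOfDetNeZero (Matrix.reindexAlgEquiv F F e X) (by
    rw [Matrix.det_reindexAlgEquiv, hX]; exact one_ne_zero) * S₀⁻¹

theorem coe_gm (e : Fin k ⊕ Fin k ≃ Fin n) (S₀ : GL (Fin n) F) (X : Matrix (Fin k ⊕ Fin k) (Fin k ⊕ Fin k) F)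
    (hX : X.det = 1) : (gm e S₀ X hX : Matrix (Fin n) (Fin n) F) =
    (S₀ : Matrix (Fin n) (Fin n) F) * Matrix.reindexAlgEquiv F F e X * ((S₀⁻¹ : GL (Fin n) F) : Matrix (Fin n) (Fin n) F) := rfl

theorem gm_mulVec (e : Fin k ⊕ Fin k ≃ Fin n) (S₀ : GL (Fin n) F) (X : Matrix (Fin k ⊕ Fin k) (Fin k ⊕ Fin k) F)
    (hX : X.det = 1) (u : Fin n → F) : (gm e S₀ X hX : Matrix (Fin n) (Fin n) F) *ᵥ u =
    (S₀ : Matrix (Fin n) (Fin n) F) *ᵥ (Matrix.reindexAlgEquiv F F e X *ᵥ (((S₀⁻¹ : GL (Fin n) F) : Matrix (Fin n) (Fin n) F) *ᵥ u)) := by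
  rw [coe_gm, Matrix.mulVec_mulVec, Matrix.mulVec_mulVec, Matrix.mul_assoc]

theorem gm_mem (e : Fin k ⊕ Fin k ≃ Fin n) (S₀ : GL (Fin n) F) (X : Matrix (Fin k ⊕ Fin k) (Fin k ⊕ Fin k) F)
    (hX : X.det = 1) : gm e S₀ X hX ∈ specialLinear (Fin n) F := by
  have h1 : (gm e S₀ X hX : Matrix (Fin n) (Fin n) F).det = 1 := by
    have h2 : (S₀ : Matrix (Fin n) (Fin n) F).det * ((S₀⁻¹ : GL (Fin n) F) : Matrix (Fin n) (Fin n) F).det = 1 := by
      rw [← Matrix.det_mul, ← Units.val_mul, mul_inv_cancel, Units.val_one, Matrix.det_one]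
    rw [coe_gm, Matrix.det_mul, Matrix.det_mul, Matrix.det_reindexAlgEquiv, hX, mul_one, h2]
  exact Units.ext h1

theorem gm_mul (e : Fin k ⊕ Fin k ≃ Fin n) (S₀ : GL (Fin n) F) (X Y : Matrix (Fin k ⊕ Fin k) (Fin k ⊕ Fin k) F)
    (hX : X.det = 1) (hY : Y.det = 1) : (gm e S₀ X hX : Matrix (Fin n) (Fin n) F) * (gm e S₀ Y hY : Matrix (Fin n) (Fin n) F) =
    (S₀ : Matrix (Fin n) (Fin n) F) * Matrix.reindexAlgEquiv F F e (X * Y) * ((S₀⁻¹ : GL (Fin n) F) : Matrix (Fin n) (Fin n) F) := by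
  have h2 : ((S₀⁻¹ : GL (Fin n) F) : Matrix (Fin n) (Fin n) F) * (S₀ : Matrix (Fin n) (Fin n) F) = 1 := by
    rw [← Units.val_mul, inv_mul_cancel, Units.val_one]
  rw [coe_gm, coe_gm, map_mul]
  generalize Matrix.reindexAlgEquiv F F e X = X'
  generalize Matrix.reindexAlgEquiv F F e Y = Y'
  calc _ = (S₀ : Matrix (Fin n) (Fin n) F) * X' * (((S₀⁻¹ : GL (Fin n) F) : Matrix (Fin n) (Fin n) F) * (S₀ : Matrix (Fin n) (Fin n) F)) *
        Y' * ((S₀⁻¹ : GL (Fin n) F) : Matrix (Fin n) (Fin n) F) := by simp only [Matrix.mul_assoc]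
    _ = _ := by rw [h2, Matrix.mul_one]; simp only [Matrix.mul_assoc]

/-- **S3499-III-SL-C8Sp.** -/
theorem sl_c8sp {Q : Type*} [Group Q] [Finite Q] {A : Subgroup Q} {Γ : Subgroup (MulAut Q)} (h : EPT A Γ)
    (m : Model Q (specialLinear (Fin n) F)) (hn : 4 ≤ n) {f : (Fin n → F) → (Fin n → F) → F} (hf : IsSymplecticForm f)
    (hA : m.hat A ≤ similarityGroup f) : False := by
  have hAe := hat_eq m h.max hA (Cfsg.Agent.H908.not_sl_le_symplectic hn hf)
  obtain ⟨k, e, S₀, hS⟩ := exists_std hf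
  have hk : 2 ≤ k := by
    have h1 := Fintype.card_congr e
    rw [Fintype.card_sum, Fintype.card_fin, Fintype.card_fin] at h1
    omega
  let a : Fin k := ⟨0, by omega⟩
  let b : Fin k := ⟨1, by omega⟩
  have hab : a ≠ b := by
    intro h1
    have := congrArg Fin.val h1
    simp [a, b] at this
  have hform : ∀ (X Y : Matrix (Fin k ⊕ Fin k) (Fin k ⊕ Fin k) F) (hX : X.det = 1) (hY : Y.det = 1) (u v : Fin n → F),
      f ((gm e S₀ X hX : Matrix (Fin n) (Fin n) F) *ᵥ u) ((gm e S₀ Y hY : Matrix (Fin n) (Fin n) F) *ᵥ v) =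
      stdForm k F (X *ᵥ ((((S₀⁻¹ : GL (Fin n) F) : Matrix (Fin n) (Fin n) F) *ᵥ u) ∘ e))
        (Y *ᵥ ((((S₀⁻¹ : GL (Fin n) F) : Matrix (Fin n) (Fin n) F) *ᵥ v) ∘ e)) := by
    intro X Y hX hY u v
    rw [gm_mulVec, gm_mulVec, hS, reindex_mulVec_comp, reindex_mulVec_comp]
  have hSS : ∀ v : Fin n → F, (S₀ : Matrix (Fin n) (Fin n) F) *ᵥ (((S₀⁻¹ : GL (Fin n) F) : Matrix (Fin n) (Fin n) F) *ᵥ v) = v := by
    intro v
    rw [Matrix.mulVec_mulVec, ← Units.val_mul, mul_inv_cancel, Units.val_one, Matrix.one_mulVec]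
  have hSS' : (S₀ : Matrix (Fin n) (Fin n) F) * ((S₀⁻¹ : GL (Fin n) F) : Matrix (Fin n) (Fin n) F) = 1 := by
    rw [← Units.val_mul, mul_inv_cancel, Units.val_one]
  have hSS'' : ((S₀⁻¹ : GL (Fin n) F) : Matrix (Fin n) (Fin n) F) * (S₀ : Matrix (Fin n) (Fin n) F) = 1 := by
    rw [← Units.val_mul, inv_mul_cancel, Units.val_one]
  have dC : (cm F a b).det = 1 := cm_det hab
  have dX : (fromBlocks (cm F a b) 0 0 (1 : Matrix (Fin k) (Fin k) F)).det = 1 := by
    rw [Matrix.det_fromBlocks_zero₂₁, dC, Matrix.det_one, one_mul]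
  have dY : (fromBlocks (cm F a b) 0 0 (cm F a b)ᵀ).det = 1 := by
    rw [Matrix.det_fromBlocks_zero₂₁, Matrix.det_transpose, dC, one_mul]
  have dG : (fromBlocks (pm F a b) 0 0 (pm F a b)).det = 1 := by
    rw [Matrix.det_fromBlocks_zero₂₁, ← Matrix.det_mul, pm_pm, Matrix.det_one]
  have hYGY : fromBlocks (cm F a b) 0 0 (cm F a b)ᵀ * fromBlocks (pm F a b) 0 0 (pm F a b) *
      fromBlocks (cm F a b) 0 0 (cm F a b)ᵀ = fromBlocks (pm F a b) 0 0 (pm F a b) := by
    have h2 : (cm F a b)ᵀ * pm F a b * (cm F a b)ᵀ = pm F a b := by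
      have h3 := congrArg Matrix.transpose (cm_pm_cm (F := F) hab)
      rw [Matrix.transpose_mul, Matrix.transpose_mul, pm_transpose, ← Matrix.mul_assoc] at h3
      exact h3
    simp only [Matrix.fromBlocks_multiply, Matrix.mul_zero, Matrix.zero_mul, add_zero, zero_add, cm_pm_cm hab, h2]
  refine sim_row h m hf.bilinear.add_left hf.bilinear.smul_left hf.nondegenerate hAe
    (x := gm e S₀ _ dX) (c := gm e S₀ _ dY) (g := gm e S₀ _ dG) (gm_mem e S₀ _ dX) ?_ ?_ (gm_mem e S₀ _ dG)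
    (l0 := 1) one_ne_zero ?_ ?_
  · intro u v
    rw [hform, std_x]
    have h1 := hS (Matrix.reindexAlgEquiv F F e (fromBlocks (cm F a b) 0 0 (cm F a b)ᵀ) *ᵥ
      (((S₀⁻¹ : GL (Fin n) F) : Matrix (Fin n) (Fin n) F) *ᵥ u)) (((S₀⁻¹ : GL (Fin n) F) : Matrix (Fin n) (Fin n) F) *ᵥ v)
    rw [hSS, reindex_mulVec_comp] at h1
    rw [← h1, gm_mulVec]
  · refine ⟨1, fun u v => ?_⟩
    rw [hform, std_g, ← hS, hSS, hSS, Units.val_one, one_mul]
  · rw [gm_mul, one_smul]
    have h2 := congrArg (fun M => (S₀ : Matrix (Fin n) (Fin n) F) * Matrix.reindexAlgEquiv F F e M *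
      ((S₀⁻¹ : GL (Fin n) F) : Matrix (Fin n) (Fin n) F)) hYGY
    simp only [map_mul] at h2 ⊢
    rw [coe_gm, coe_gm, ← h2]
    generalize Matrix.reindexAlgEquiv F F e (fromBlocks (cm F a b) 0 0 (cm F a b)ᵀ) = X'
    generalize Matrix.reindexAlgEquiv F F e (fromBlocks (pm F a b) 0 0 (pm F a b)) = G'
    calc _ = (S₀ : Matrix (Fin n) (Fin n) F) * (X' * G') * (((S₀⁻¹ : GL (Fin n) F) : Matrix (Fin n) (Fin n) F) *
          (S₀ : Matrix (Fin n) (Fin n) F)) * X' * ((S₀⁻¹ : GL (Fin n) F) : Matrix (Fin n) (Fin n) F) := by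
            simp only [Matrix.mul_assoc]
      _ = _ := by rw [hSS'', Matrix.mul_one]; simp only [Matrix.mul_assoc]
  · intro l hl
    rw [gm_mul] at hl
    have h3 : Matrix.reindexAlgEquiv F F e (fromBlocks (cm F a b) 0 0 (cm F a b)ᵀ * fromBlocks (cm F a b) 0 0 (cm F a b)ᵀ) =
        l • (1 : Matrix (Fin n) (Fin n) F) := by
      generalize Matrix.reindexAlgEquiv F F e _ = X' at hl
      calc X' = (((S₀⁻¹ : GL (Fin n) F) : Matrix (Fin n) (Fin n) F) * (S₀ : Matrix (Fin n) (Fin n) F)) * X' *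
            (((S₀⁻¹ : GL (Fin n) F) : Matrix (Fin n) (Fin n) F) * (S₀ : Matrix (Fin n) (Fin n) F)) := by
              rw [hSS'', Matrix.one_mul, Matrix.mul_one]
        _ = ((S₀⁻¹ : GL (Fin n) F) : Matrix (Fin n) (Fin n) F) * ((S₀ : Matrix (Fin n) (Fin n) F) * X' *
            ((S₀⁻¹ : GL (Fin n) F) : Matrix (Fin n) (Fin n) F)) * (S₀ : Matrix (Fin n) (Fin n) F) := by
              simp only [Matrix.mul_assoc]
        _ = l • (1 : Matrix (Fin n) (Fin n) F) := by
              rw [hl, Matrix.mul_smul, Matrix.smul_mul, Matrix.mul_one, hSS'']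
    have h4 : fromBlocks (cm F a b) 0 0 (cm F a b)ᵀ * fromBlocks (cm F a b) 0 0 (cm F a b)ᵀ =
        l • (1 : Matrix (Fin k ⊕ Fin k) (Fin k ⊕ Fin k) F) := by
      apply (Matrix.reindexAlgEquiv F F e).injective
      rw [h3, map_smul, map_one]
    rw [Matrix.fromBlocks_multiply, ← Matrix.fromBlocks_one, Matrix.fromBlocks_smul] at h4
    have h5 := (Matrix.fromBlocks_inj.1 h4).1
    rw [Matrix.zero_mul, add_zero] at h5
    exact cm_sq hab l h5

end row

end Cfsg.Agent.H458.EP
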