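import Cfsg.Agent.H419.EP.Iface

/-!
# S3499: the kill criterion `N_A(M0) = M0` and its form for the similarity groups of forms (helper458)

* `kill_norm` : `M̂0 = Â ∩ Â^x`; every `g ∈ Â` which normalises `M̂0` lies in `Â^x`.
* `sim_row` : `Â = similarityGroup f ∩ S`, `x ∈ S` with `f(xu, xv) = f(cu, v)`, `g₀ ∈ Â` with `c g₀ c = l g₀`, `c²` not a
  scalar: `False`. (`f` bilinear or sesquilinear, linear in the first argument.)
-/

set_option autoImplicit false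

namespace Cfsg.Agent.H458.EP

open Subgroup Cfsg.Agent.H284 Cfsg.Agent.H419.EP Cfsg.Geo Matrix
open scoped MatrixGroups

section kill

variable {Q : Type*} [Group Q] [Finite Q] {A : Subgroup Q} {Γ : Subgroup (MulAut Q)} (h : EPT A Γ)
variable {ι : Type} [Fintype ι] [DecidableEq ι] {F : Type*} [Field F] {S : Subgroup (GL ι F)} (m : Model Q S)

include h

/-- **Kill criterion `N_A(M0) = M0`**: for `x ∈ S`, `x ∉ Â`, every `g ∈ Â` which normalises `Â ∩ Â^x` lies in `Â^x`. -/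
theorem kill_norm {x : GL ι F} (hxS : x ∈ S) (hx : x ∉ m.hat A) {g : GL ι F} (hg : g ∈ m.hat A)
    (hgK : ∀ k ∈ m.hat A, k ∈ cj x (m.hat A) → g * k * g⁻¹ ∈ cj x (m.hat A)) : g ∈ cj x (m.hat A) := by
  have hx' : m.π ⟨x, hxS⟩ ∉ A := fun e => hx ((m.mem_hat_iff ⟨x, hxS⟩).2 e)
  obtain ⟨hgS, hgA⟩ := m.mem_hat.1 hg
  have key : m.π ⟨g, hgS⟩ ∈ cj (m.π ⟨x, hxS⟩) A := by
    refine h.norm_aut hx' (K := A ⊓ cj (m.π ⟨x, hxS⟩) A) le_rfl (fun σ hσ => hσ) (h.M0 _ hx') hgA ?_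
    intro k hk
    obtain ⟨s, rfl⟩ := m.surj k
    have h1 : (s : GL ι F) ∈ m.hat A := (m.mem_hat_iff s).2 (mem_inf.1 hk).1
    have h2 : (s : GL ι F) ∈ cj x (m.hat A) := by
      rw [← m.hat_cj A ⟨x, hxS⟩]
      exact (m.mem_hat_iff s).2 (mem_inf.1 hk).2
    have h3 := hgK _ h1 h2
    rw [← m.hat_cj A ⟨x, hxS⟩] at h3
    have h4 : (((⟨g, hgS⟩ * s * ⟨g, hgS⟩⁻¹ : S)) : GL ι F) ∈ m.hat (cj (m.π ⟨x, hxS⟩) A) := h3
    have h5 := (m.mem_hat_iff _).1 h4
    rw [map_mul, map_mul, map_inv] at h5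
    exact ⟨A.mul_mem (A.mul_mem hgA (mem_inf.1 hk).1) (A.inv_mem hgA), h5⟩
  rw [← m.hat_cj A ⟨x, hxS⟩]
  exact m.mem_hat.2 ⟨hgS, key⟩

omit h in
/-- `Â = M ∩ S` if `Â ≤ M` and `S` is not contained in `M` -/
theorem hat_eq {M : Subgroup (GL ι F)} (hmax : IsCoatom A) (hA : m.hat A ≤ M) (hS : ¬ S ≤ M) : m.hat A = M ⊓ S := by
  rcases (m.isMaximalIn hmax).2 (M ⊓ S) (le_inf hA (m.hat_le A)) inf_le_right with h1 | h1
  · exact h1.symm
  · exact absurd (inf_eq_right.1 h1) hS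

end kill

section forms

variable {ι : Type} [Fintype ι] [DecidableEq ι] {F : Type*} [Field F] {f : (ι → F) → (ι → F) → F}

theorem eq_of_form (hadd : ∀ x y v, f (x + y) v = f x v + f y v) (hsmul : ∀ (c : F) (x v : ι → F), f (c • x) v = c * f x v)
    (hnd : IsNondegenerateForm f) {u w : ι → F} (h : ∀ v, f u v = f w v) : u = w := by
  by_contra hne
  obtain ⟨-, x, hx⟩ := hnd (u - w) (sub_ne_zero.2 hne)
  apply hx
  rw [sub_eq_add_neg, ← neg_one_smul F w, hadd, hsmul, h x]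
  ring

/-- the elements of `Â ∩ Â^{x⁻¹}` commute with `c` up to a scalar -/
theorem sim_iff (hadd : ∀ x y v, f (x + y) v = f x v + f y v) (hsmul : ∀ (c : F) (x v : ι → F), f (c • x) v = c * f x v)
    (hnd : IsNondegenerateForm f) {x c : GL ι F}
    (hx : ∀ u v, f ((x : Matrix ι ι F) *ᵥ u) ((x : Matrix ι ι F) *ᵥ v) = f ((c : Matrix ι ι F) *ᵥ u) v) {g : GL ι F}
    (hg : g ∈ similarityGroup f) :
    g ∈ cj x⁻¹ (similarityGroup f) ↔
      ∃ l : F, l ≠ 0 ∧ (c : Matrix ι ι F) * (g : Matrix ι ι F) = l • ((g : Matrix ι ι F) * (c : Matrix ι ι F)) := by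
  obtain ⟨ν, hν⟩ := hg
  have hxx : ∀ u : ι → F, ((x⁻¹ : GL ι F) : Matrix ι ι F) *ᵥ ((x : Matrix ι ι F) *ᵥ u) = u := by
    intro u
    rw [Matrix.mulVec_mulVec, ← Units.val_mul, inv_mul_cancel, Units.val_one, Matrix.one_mulVec]
  have hxx' : ∀ u : ι → F, (x : Matrix ι ι F) *ᵥ (((x⁻¹ : GL ι F) : Matrix ι ι F) *ᵥ u) = u := by
    intro u
    rw [Matrix.mulVec_mulVec, ← Units.val_mul, mul_inv_cancel, Units.val_one, Matrix.one_mulVec]
  have hgg' : ∀ u : ι → F, (g : Matrix ι ι F) *ᵥ (((g⁻¹ : GL ι F) : Matrix ι ι F) *ᵥ u) = u := by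
    intro u
    rw [Matrix.mulVec_mulVec, ← Units.val_mul, mul_inv_cancel, Units.val_one, Matrix.one_mulVec]
  have hco : ((x⁻¹⁻¹ * g * x⁻¹ : GL ι F) : Matrix ι ι F) = (x : Matrix ι ι F) * (g : Matrix ι ι F) *
      ((x⁻¹ : GL ι F) : Matrix ι ι F) := by
    rw [inv_inv]
    rfl
  rw [mem_cj]
  constructor
  · rintro ⟨μ, hμ⟩
    refine ⟨(μ : F) * (ν : F)⁻¹, mul_ne_zero μ.ne_zero (inv_ne_zero ν.ne_zero), ?_⟩
    have h1 : ∀ u : ι → F, (c : Matrix ι ι F) *ᵥ ((g : Matrix ι ι F) *ᵥ u) =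
        ((μ : F) * (ν : F)⁻¹) • ((g : Matrix ι ι F) *ᵥ ((c : Matrix ι ι F) *ᵥ u)) := by
      intro u
      apply eq_of_form hadd hsmul hnd
      intro v
      have h2 := hμ ((x : Matrix ι ι F) *ᵥ u) ((x : Matrix ι ι F) *ᵥ (((g⁻¹ : GL ι F) : Matrix ι ι F) *ᵥ v))
      rw [hco, ← Matrix.mulVec_mulVec, ← Matrix.mulVec_mulVec, hxx, ← Matrix.mulVec_mulVec, ← Matrix.mulVec_mulVec, hxx, hgg',
        hx, hx] at h2
      have h3 := hν ((c : Matrix ι ι F) *ᵥ u) (((g⁻¹ : GL ι F) : Matrix ι ι F) *ᵥ v)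
      rw [hgg'] at h3
      rw [h2, hsmul, h3]
      have := ν.ne_zero
      field_simp
    apply Matrix.toLin'.injective
    apply LinearMap.ext
    intro u
    rw [Matrix.toLin'_apply, Matrix.toLin'_apply, ← Matrix.mulVec_mulVec, h1, Matrix.smul_mulVec, ← Matrix.mulVec_mulVec]
  · rintro ⟨l, hl, hc⟩
    refine ⟨Units.mk0 (l * ν) (mul_ne_zero hl ν.ne_zero), fun u v => ?_⟩
    rw [hco, ← Matrix.mulVec_mulVec, ← Matrix.mulVec_mulVec, ← Matrix.mulVec_mulVec, ← Matrix.mulVec_mulVec, hx,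
      Matrix.mulVec_mulVec, hc, Matrix.smul_mulVec, hsmul, ← Matrix.mulVec_mulVec, hν, Units.val_mk0]
    have h4 := hx (((x⁻¹ : GL ι F) : Matrix ι ι F) *ᵥ u) (((x⁻¹ : GL ι F) : Matrix ι ι F) *ᵥ v)
    rw [hxx', hxx'] at h4
    rw [h4]
    ring

variable {Q : Type*} [Group Q] [Finite Q] {A : Subgroup Q} {Γ : Subgroup (MulAut Q)}

/-- **The kill for similarity groups.** -/
theorem sim_row (h : EPT A Γ) {S : Subgroup (GL ι F)} (m : Model Q S) (hadd : ∀ x y v, f (x + y) v = f x v + f y v)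
    (hsmul : ∀ (c : F) (x v : ι → F), f (c • x) v = c * f x v) (hnd : IsNondegenerateForm f)
    (hA : m.hat A = similarityGroup f ⊓ S) {x c : GL ι F} (hxS : x ∈ S)
    (hx : ∀ u v, f ((x : Matrix ι ι F) *ᵥ u) ((x : Matrix ι ι F) *ᵥ v) = f ((c : Matrix ι ι F) *ᵥ u) v) {g : GL ι F}
    (hg : g ∈ similarityGroup f) (hgS : g ∈ S) {l0 : F} (hl0 : l0 ≠ 0)
    (hcg : (c : Matrix ι ι F) * (g : Matrix ι ι F) * (c : Matrix ι ι F) = l0 • (g : Matrix ι ι F))
    (hcc : ∀ l : F, (c : Matrix ι ι F) * (c : Matrix ι ι F) ≠ l • (1 : Matrix ι ι F)) : False := by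
  have hxM : x⁻¹ ∉ m.hat A := by
    intro hmem
    rw [hA] at hmem
    obtain ⟨μ, hμ⟩ := (similarityGroup f).inv_mem (mem_inf.1 hmem).1
    rw [inv_inv] at hμ
    have h1 : (c : Matrix ι ι F) = (μ : F) • (1 : Matrix ι ι F) := by
      apply Matrix.toLin'.injective
      apply LinearMap.ext
      intro u
      rw [Matrix.toLin'_apply, Matrix.toLin'_apply, Matrix.smul_mulVec, Matrix.one_mulVec]
      apply eq_of_form hadd hsmul hnd
      intro v
      rw [← hx, hμ, hsmul]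
    apply hcc ((μ : F) * μ)
    rw [h1, Matrix.smul_mul, Matrix.one_mul, smul_smul]
  have hgA : g ∈ m.hat A := by
    rw [hA]
    exact ⟨hg, hgS⟩
  -- inverses
  set C : Matrix ι ι F := (c : Matrix ι ι F) with hC
  set G : Matrix ι ι F := (g : Matrix ι ι F) with hG
  set C' : Matrix ι ι F := ((c⁻¹ : GL ι F) : Matrix ι ι F) with hC'
  set G' : Matrix ι ι F := ((g⁻¹ : GL ι F) : Matrix ι ι F) with hG'
  have cc' : C * C' = 1 := by rw [hC, hC', ← Units.val_mul, mul_inv_cancel, Units.val_one]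
  have c'c : C' * C = 1 := by rw [hC, hC', ← Units.val_mul, inv_mul_cancel, Units.val_one]
  have gg' : G * G' = 1 := by rw [hG, hG', ← Units.val_mul, mul_inv_cancel, Units.val_one]
  have g'g : G' * G = 1 := by rw [hG, hG', ← Units.val_mul, inv_mul_cancel, Units.val_one]
  have e1 : C * G = l0 • (G * C') := by
    calc C * G = (C * G * C) * C' := by rw [Matrix.mul_assoc (C * G), cc', Matrix.mul_one]
      _ = l0 • (G * C') := by rw [hcg, Matrix.smul_mul]
  have e2 : C' * G' = l0⁻¹ • (G' * C) := by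
    have h1 : G' * C = l0 • (C' * G') := by
      calc G' * C = G' * (C * G) * G' := by
            rw [Matrix.mul_assoc, Matrix.mul_assoc C, gg', Matrix.mul_one]
        _ = l0 • (C' * G') := by
            rw [e1, Matrix.mul_smul, Matrix.smul_mul, ← Matrix.mul_assoc, g'g, Matrix.one_mul]
    rw [h1, smul_smul, inv_mul_cancel₀ hl0, one_smul]
  have key : g ∈ cj x⁻¹ (m.hat A) := by
    refine kill_norm h m (S.inv_mem hxS) hxM hgA ?_
    intro k hk hkx
    rw [hA] at hk hkx ⊢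
    have hk1 := (mem_inf.1 hk).1
    have hkx1 : k ∈ cj x⁻¹ (similarityGroup f) := by
      rw [mem_cj] at hkx ⊢
      exact (mem_inf.1 hkx).1
    obtain ⟨l, hl, e3⟩ := (sim_iff hadd hsmul hnd hx hk1).1 hkx1
    have hk2 : g * k * g⁻¹ ∈ similarityGroup f :=
      (similarityGroup f).mul_mem ((similarityGroup f).mul_mem hg hk1) ((similarityGroup f).inv_mem hg)
    have h5 : g * k * g⁻¹ ∈ cj x⁻¹ (similarityGroup f) := by
      refine (sim_iff hadd hsmul hnd hx hk2).2 ⟨l⁻¹, inv_ne_zero hl, ?_⟩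
      have hco : ((g * k * g⁻¹ : GL ι F) : Matrix ι ι F) = G * (k : Matrix ι ι F) * G' := rfl
      rw [hco, ← hC]
      rw [← hC] at e3
      set K : Matrix ι ι F := (k : Matrix ι ι F) with hK
      have e4 : C' * K = l⁻¹ • (K * C') := by
        have h1 : K * C' = l • (C' * K) := by
          calc K * C' = C' * (C * K) * C' := by
                rw [← Matrix.mul_assoc, c'c, Matrix.one_mul]
            _ = l • (C' * K) := by
                rw [e3, Matrix.mul_smul, Matrix.smul_mul, ← Matrix.mul_assoc, Matrix.mul_assoc, cc', Matrix.mul_one]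
        rw [h1, smul_smul, inv_mul_cancel₀ hl, one_smul]
      calc C * (G * K * G') = (C * G) * K * G' := by simp only [Matrix.mul_assoc]
        _ = l0 • (G * (C' * K) * G') := by rw [e1]; simp only [Matrix.smul_mul, Matrix.mul_assoc]
        _ = (l0 * l⁻¹) • (G * K * (C' * G')) := by
            rw [e4]
            simp only [Matrix.smul_mul, Matrix.mul_smul, Matrix.mul_assoc, smul_smul]
        _ = (l0 * l⁻¹ * l0⁻¹) • (G * K * G' * C) := by
            rw [e2]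
            simp only [Matrix.mul_smul, Matrix.mul_assoc, smul_smul]
        _ = l⁻¹ • (G * K * G' * C) := by
            congr 1
            field_simp
    rw [mem_cj] at h5 ⊢
    refine ⟨h5, ?_⟩
    have hkS := (mem_inf.1 hk).2
    rw [inv_inv]
    exact S.mul_mem (S.mul_mem hxS (S.mul_mem (S.mul_mem hgS hkS) (S.inv_mem hgS))) (S.inv_mem hxS)
  rw [hA] at key
  have key1 : g ∈ cj x⁻¹ (similarityGroup f) := by
    rw [mem_cj] at key ⊢
    exact (mem_inf.1 key).1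
  obtain ⟨l, hl, e3⟩ := (sim_iff hadd hsmul hnd hx hg).1 key1
  rw [← hC, ← hG] at e3
  have e5 : l • (G * (C * C)) = l0 • G := by
    rw [← hcg, e3, Matrix.smul_mul, Matrix.mul_assoc]
  apply hcc (l0 * l⁻¹)
  have e6 : G * (C * C) = (l0 * l⁻¹) • G := by
    calc G * (C * C) = l⁻¹ • (l • (G * (C * C))) := by rw [smul_smul, inv_mul_cancel₀ hl, one_smul]
      _ = (l0 * l⁻¹) • G := by rw [e5, smul_smul, mul_comm]
  calc C * C = G' * (G * (C * C)) := by rw [← Matrix.mul_assoc, g'g, Matrix.one_mul]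
    _ = (l0 * l⁻¹) • (1 : Matrix ι ι F) := by rw [e6, Matrix.mul_smul, g'g]

end forms

end Cfsg.Agent.H458.EP
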